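import Cfsg.Agent.Lib.BN.SplitSylow
import Mathlib.GroupTheory.Commutator.Basic
import Mathlib.GroupTheory.Sylow

/-!
`U` is generated by the conjugates of the simple root sets inside it; squares in `U` lie in `U'`.
-/

set_option autoImplicit false
set_option linter.unusedSectionVars false

namespace Cfsg.Agent.Lib.BN.Split

open scoped commutatorElement

variable {G : Type*} [Group G] [Finite G] {D : Split G} {p : ℕ} [Fact p.Prime]

theorem pow_mem_U (hU : IsPGroup p D.U) (hT : ¬ p ∣ Nat.card D.T) {x : G} (hx : x ∈ D.B) {k : ℕ}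
    (hk : x ^ p ^ k = 1) : x ∈ D.U := by
  have hz : IsPGroup p (Subgroup.zpowers x) := by
    rintro ⟨y, hy⟩
    obtain ⟨i, rfl⟩ := Subgroup.mem_zpowers_iff.1 hy
    refine ⟨k, Subtype.ext ?_⟩
    show (x ^ i) ^ p ^ k = 1
    rw [← zpow_natCast, ← zpow_mul, mul_comm, zpow_mul, zpow_natCast, hk, one_zpow]
  have hle : Subgroup.zpowers x ≤ Subgroup.normalizer (D.U : Set G) := by
    rw [Subgroup.zpowers_le, Subgroup.mem_normalizer_iff]
    exact fun u => ⟨D.U_norm x hx u, fun h => by simpa [mul_assoc] using D.U_norm x⁻¹ (inv_mem hx) _ h⟩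
  have h := hz.to_sup_of_normal_right' hU hle
  exact (Sylow.is_maximal' (hU.toSylow (not_dvd_index hU hT)) h le_sup_right).le
    (Subgroup.mem_sup_left (Subgroup.mem_zpowers x))

theorem conj_mem_U (hU : IsPGroup p D.U) (hT : ¬ p ∣ Nat.card D.T) {u n : G} (hu : u ∈ D.U)
    (h : n * u * n⁻¹ ∈ D.B) : n * u * n⁻¹ ∈ D.U := by
  obtain ⟨k, hk⟩ := hU ⟨u, hu⟩
  refine pow_mem_U hU hT h (k := k) ?_
  rw [← MulAut.conj_apply, ← map_pow, show u ^ p ^ k = 1 by simpa using congrArg Subtype.val hk, map_one]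

variable (D) in
/-- The conjugates of whole simple root sets inside `U`. -/
def posConj : Set G :=
  {g | ∃ n ∈ D.Mon, ∃ s ∈ D.S, (∀ v ∈ D.X s, n * v * n⁻¹ ∈ D.U) ∧ ∃ u ∈ D.X s, g = n * u * n⁻¹}

theorem le_closure_posConj (hsat : D.Sat) (hU : IsPGroup p D.U) (hT : ¬ p ∣ Nat.card D.T) :
    D.U ≤ Subgroup.closure (posConj D) := by
  have key : ∀ k : ℕ, ∀ w : Weyl D.bn, len D.bn w = k → ∃ n : D.bn.N, cls D.bn n = w ∧
      ∀ x ∈ D.U, ∃ d ∈ D.U, (n : G)⁻¹ * d * n ∈ D.B ∧ ∃ r ∈ Subgroup.closure (posConj D), x = d * r := by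
    intro k
    induction k with
    | zero =>
      intro w hw
      refine ⟨1, ?_, fun x hx => ⟨x, hx, by simpa using D.U_le hx, 1, one_mem _, (mul_one x).symm⟩⟩
      rw [eq_one_of_len_eq_zero _ hw]; rfl
    | succ k ih =>
      intro w hw
      obtain ⟨u, s, hus, hlen⟩ := exists_right_factor D.bn (w := w) (by omega)
      obtain ⟨n, hn, hind⟩ := ih u (by omega)
      refine ⟨n * ⟨s.1, D.bn.subset s.2⟩, by rw [hus, ← hn]; rfl, fun x hx => ?_⟩
      have hlt : len D.bn (cls D.bn n⁻¹) < len D.bn (si D.bn s * cls D.bn n⁻¹) := by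
        have e1 : cls D.bn n⁻¹ = u⁻¹ := by rw [← hn]; rfl
        have e2 : si D.bn s * cls D.bn n⁻¹ = w⁻¹ := by rw [e1, hus, mul_inv_rev, si_inv]
        rw [e2, e1, len_inverse, len_inverse]
        omega
      have hpos : ∀ v ∈ D.X s, (n : G) * v * (n : G)⁻¹ ∈ D.B := fun v hv => by
        simpa using (len_lt_iff s n⁻¹).1 hlt v hv
      have hposU : ∀ v ∈ D.X s, (n : G) * v * (n : G)⁻¹ ∈ D.U := fun v hv =>
        conj_mem_U hU hT (D.X_le s.1 s.2 hv) (hpos v hv)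
      obtain ⟨d, hd, hdB, r, hr, rfl⟩ := hind x hx
      obtain ⟨v, hv, c, hc, hsc, e⟩ := D.dec s.1 s.2 _ hdB
      have hd' : (n : G) * c * (n : G)⁻¹ = d * ((n : G) * v * (n : G)⁻¹)⁻¹ := by
        rw [show c = (n : G)⁻¹ * d * n * v⁻¹ by rw [e, mul_inv_cancel_right]]
        group
      refine ⟨(n : G) * c * (n : G)⁻¹, hd' ▸ mul_mem hd (inv_mem (hposU v hv)), ?_,
        (n : G) * v * (n : G)⁻¹ * r, mul_mem (Subgroup.subset_closure
          ⟨n, mem_Mon n, s.1, s.2, hposU, v, hv, rfl⟩) hr, ?_⟩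
      · have h2 := mul_mem (mul_mem (inv_mem (D.sq s.1 s.2)) hsc) (D.sq s.1 s.2)
        simpa [mul_assoc] using h2
      · rw [hd']; group
  obtain ⟨w, hw⟩ := exists_top D.bn
  obtain ⟨n, hn, h⟩ := key _ w rfl
  intro x hx
  obtain ⟨d, hd, hdB, r, hr, rfl⟩ := h x hx
  have hdT := hsat n (mem_Mon n) ((isTop_iff n).1 (hn ▸ hw)) d (D.U_le hd) hdB
  have : d ∈ D.U ⊓ D.T := ⟨hd, hdT⟩
  rw [D.disjoint, Subgroup.mem_bot] at this
  rwa [this, one_mul]

/-- Squares lie in the derived subgroup when this holds inside each simple root set. -/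
theorem sq_mem_commutator (hsat : D.Sat) (hU : IsPGroup p D.U) (hT : ¬ p ∣ Nat.card D.T)
    (h : ∀ s ∈ D.S, ∀ u ∈ D.X s, u * u = 1 ∨ ∃ a ∈ D.X s, ∃ b ∈ D.X s, u * u = ⁅a, b⁆) :
    ∀ x ∈ D.U, x * x ∈ ⁅D.U, D.U⁆ := by
  have hgen : ∀ g ∈ posConj D, g ∈ D.U ∧ g * g ∈ ⁅D.U, D.U⁆ := by
    rintro _ ⟨n, -, s, hs, hall, u, hu, rfl⟩
    refine ⟨hall u hu, ?_⟩
    have e : n * u * n⁻¹ * (n * u * n⁻¹) = MulAut.conj n (u * u) := by simp [mul_assoc]
    rcases h s hs u hu with h1 | ⟨a, ha, b, hb, h1⟩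
    · rw [e, h1, map_one]; exact one_mem _
    · rw [e, h1, map_commutatorElement]
      exact Subgroup.commutator_mem_commutator (by simpa using hall a ha) (by simpa using hall b hb)
  intro x hx
  have hcl := le_closure_posConj hsat hU hT hx
  suffices x ∈ D.U ∧ x * x ∈ ⁅D.U, D.U⁆ from this.2
  clear hx
  induction hcl using Subgroup.closure_induction with
  | mem g hg => exact hgen g hg
  | one => exact ⟨one_mem _, by simp [one_mem]⟩
  | mul a b _ _ ha hb =>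
    refine ⟨mul_mem ha.1 hb.1, ?_⟩
    have hN : ∀ c ∈ D.U, ∀ z ∈ ⁅D.U, D.U⁆, c * z * c⁻¹ ∈ ⁅D.U, D.U⁆ := fun c hc z hz => by
      have hle : ⁅D.U, D.U⁆.map (MulAut.conj c).toMonoidHom ≤ ⁅D.U, D.U⁆ := by
        rw [Subgroup.map_commutator]
        have hm : D.U.map (MulAut.conj c).toMonoidHom ≤ D.U := by
          rintro _ ⟨y, hy, rfl⟩
          simpa using mul_mem (mul_mem hc hy) (inv_mem hc)
        exact Subgroup.commutator_mono hm hm
      simpa using hle ⟨z, hz, rfl⟩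
    have e : a * b * (a * b) = ⁅a, b⁆ * (b * (a * a) * b⁻¹) * (b * b) := by
      rw [commutatorElement_def]; group
    rw [e]
    exact mul_mem (mul_mem (Subgroup.commutator_mem_commutator ha.1 hb.1) (hN b hb.1 _ ha.2)) hb.2
  | inv a _ ha =>
    exact ⟨inv_mem ha.1, by rw [← mul_inv_rev]; exact inv_mem ha.2⟩

end Cfsg.Agent.Lib.BN.Split
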