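import Mathlib.GroupTheory.Sylow
import Mathlib.GroupTheory.Commutator.Basic
import Mathlib.GroupTheory.Abelianization.Defs

/-!
Squares in the Sylow 2-subgroups lie in the derived subgroup: transport lemmas.
-/

set_option autoImplicit false

namespace Cfsg.Agent.Lib.BN

open scoped commutatorElement Pointwise

variable {G : Type*} [Group G]

/-- Squares in a subgroup lie in its derived subgroup. -/
def SqIn (U : Subgroup G) : Prop := ∀ x ∈ U, x * x ∈ ⁅U, U⁆

theorem SqIn.map {H : Type*} [Group H] {U : Subgroup G} (h : SqIn U) (f : G →* H) : SqIn (U.map f) := by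
  rintro _ ⟨x, hx, rfl⟩
  rw [← Subgroup.map_commutator, ← map_mul]
  exact ⟨_, h x hx, rfl⟩

theorem SqIn.of_gens {U : Subgroup G} {s : Set G} (hs : U ≤ Subgroup.closure s)
    (h : ∀ g ∈ s, g ∈ U ∧ g * g ∈ ⁅U, U⁆) : SqIn U := by
  intro x hx
  suffices x ∈ U ∧ x * x ∈ ⁅U, U⁆ from this.2
  have hcl := hs hx
  clear hx
  induction hcl using Subgroup.closure_induction with
  | mem g hg => exact h g hg
  | one => exact ⟨one_mem _, by simp [one_mem]⟩
  | mul a b _ _ ha hb =>
    refine ⟨mul_mem ha.1 hb.1, ?_⟩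
    have hN : ∀ c ∈ U, ∀ z ∈ ⁅U, U⁆, c * z * c⁻¹ ∈ ⁅U, U⁆ := fun c hc z hz => by
      have hle : ⁅U, U⁆.map (MulAut.conj c).toMonoidHom ≤ ⁅U, U⁆ := by
        rw [Subgroup.map_commutator]
        have hm : U.map (MulAut.conj c).toMonoidHom ≤ U := by
          rintro _ ⟨y, hy, rfl⟩
          simpa using mul_mem (mul_mem hc hy) (inv_mem hc)
        exact Subgroup.commutator_mono hm hm
      simpa using hle ⟨z, hz, rfl⟩
    have e : a * b * (a * b) = ⁅a, b⁆ * (b * (a * a) * b⁻¹) * (b * b) := by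
      rw [commutatorElement_def]; group
    rw [e]
    exact mul_mem (mul_mem (Subgroup.commutator_mem_commutator ha.1 hb.1) (hN b hb.1 _ ha.2)) hb.2
  | inv a _ ha =>
    exact ⟨inv_mem ha.1, by rw [← mul_inv_rev]; exact inv_mem ha.2⟩

/-- Transport of `SqIn` to an arbitrary Sylow 2-subgroup of an isomorphic group. -/
theorem SqIn.sylow {H : Type*} [Group H] [Finite G] [Finite H] {V : Subgroup H} (h : SqIn V)
    (hV : IsPGroup 2 V) (hi : ¬ 2 ∣ V.index) (e : G ≃* H) (P : Sylow 2 G) :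
    ∀ x : (P : Subgroup G), x ^ 2 ∈ commutator (P : Subgroup G) := by
  haveI : Fact (Nat.Prime 2) := ⟨Nat.prime_two⟩
  let Q : Sylow 2 H := hV.toSylow hi
  let R : Sylow 2 G := Q.comapOfInjective e.toMonoidHom e.injective (by
    rintro x -; exact ⟨e.symm x, e.apply_symm_apply x⟩)
  obtain ⟨g, hg⟩ := MulAction.exists_smul_eq G R P
  have hP : (P : Subgroup G) = (V.map e.symm.toMonoidHom).map (MulAut.conj g).toMonoidHom := by
    rw [← hg]
    show (MulAut.conj g • R.1) = _
    rw [Subgroup.pointwise_smul_def]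
    congr 1
    ext y
    constructor
    · intro hy
      exact ⟨e y, hy, e.symm_apply_apply y⟩
    · rintro ⟨v, hv, rfl⟩
      show e (e.symm v) ∈ V
      rwa [e.apply_symm_apply]
  have hS : SqIn (P : Subgroup G) := hP ▸ (h.map _).map _
  intro x
  have hx := hS x x.2
  rw [← Subgroup.map_subtype_commutator] at hx
  obtain ⟨y, hy, hy'⟩ := hx
  rw [show x ^ 2 = y from Subtype.ext (by rw [pow_two]; exact hy'.symm)]
  exact hy

/-- Some Sylow 2-subgroup has its squares in its derived subgroup. -/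
def HasSq (G : Type*) [Group G] : Prop := ∃ U : Subgroup G, IsPGroup 2 U ∧ ¬ 2 ∣ U.index ∧ SqIn U

theorem HasSq.sylow {H : Type*} [Group H] [Finite G] [Finite H] (h : HasSq H) (e : G ≃* H) (P : Sylow 2 G) :
    ∀ x : (P : Subgroup G), x ^ 2 ∈ commutator (P : Subgroup G) := by
  obtain ⟨U, hU, hi, hs⟩ := h
  exact hs.sylow hU hi e P

end Cfsg.Agent.Lib.BN
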